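import Groth.Prelude.Def_ModelsG
import Groth.Agent.Dix.MinusCurve
import Groth.Agent.Dix.GenFibre
import Groth.Agent.Dix.Cast0
import Groth.Agent.Dix.Cast2
import Groth.Agent.Dix.MinimalUnique
import Groth.Agent.Dix.CastMain

/-!
# Exceptional curves of the first kind and (-1)-curves; regular proper models from arithmetic surfaces

Translation between the notions of `Models` (`IsExcCurve`, `IsRegularProperModel`) and those used in
`Groth.Agent.Dix` (`MinusCurve`, `IsArithSurface`).
-/

set_option autoImplicit false
universe u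

open CategoryTheory CategoryTheory.Limits AlgebraicGeometry Opposite TopologicalSpace

namespace Groth.Agent.Models.H51.RelMin

open Groth.Agent.Dix.MinusCurve Groth.Agent.Dix.GenFibre

/-- An exceptional curve of the first kind is a (-1)-curve (after transport to a projective line). -/
theorem exists_minusCurve_of_isExcCurve {E Y : Scheme.{u}} (ι : E ⟶ Y) [IsClosedImmersion ι]
    (h : Models.IsExcCurve ι) : ∃ F : MinusCurve Y, F.support = Set.range ι := by
  obtain ⟨heff, k, _, e, ⟨θ⟩⟩ := h
  have hker : (e.hom ≫ ι).ker = ι.ker := Scheme.Hom.ker_comp_of_isIso e.hom ι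
  refine ⟨{ k := k, ι := e.hom ≫ ι, eff := by rw [hker]; exact heff, deg := ?_ }, ?_⟩
  · rw [hker, Dix.Cast0.curveDeg_congr k θ]
    exact Dix.Cast2.wp2_deg k 1
  · exact e.hom.homeomorph.surjective.range_comp ι

/-- A relatively minimal arithmetic surface over a discrete valuation ring contains no exceptional curve of the
first kind. -/
theorem not_isExcCurve_of_isRelMinimal {R : Type u} [CommRing R] [IsDomain R] [IsDiscreteValuationRing R]
    {X : Over (Spec (CommRingCat.of R))} (hX : ArSurf.IsArithSurface R X)
    (hmin : Neron.IsRelMinimalRegularModel R X) {E : Scheme.{u}} (ι : E ⟶ X.left) [IsClosedImmersion ι] :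
    ¬ Models.IsExcCurve ι := by
  intro h
  obtain ⟨F, -⟩ := exists_minusCurve_of_isExcCurve ι h
  refine (Dix.MinimalUnique.isEmpty_minusCurve (IsDiscreteValuationRing.not_isField R) hmin ?_).false F
  intro k _ ι _ heff hdeg
  obtain ⟨Y, f, y, hy, h1, h2, -, h4⟩ := Groth.Agent.Dix.CastMain.wp5 R X hX k ι heff hdeg
  exact ⟨Y, f, y, hy, h1, h2, h4⟩

variable {R : Type u} [CommRing R] [IsDomain R] [IsDiscreteValuationRing R]

/-- Transport of the generic fibre along a morphism which is an isomorphism on generic fibres. -/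
theorem isPullback_of_isIso_genericFibre {X Y : Over (Spec (CommRingCat.of R))} (b : X ⟶ Y)
    [IsIso ((Neron.genericFibre R).map b)] {C : Scheme.{u}} {f : C ⟶ Spec (CommRingCat.of (FractionRing R))}
    {g : C ⟶ X.left} (hg : IsPullback g f X.hom (Neron.genPt R)) :
    IsPullback (g ≫ b.left) f Y.hom (Neron.genPt R) := by
  let e₁ := hg.isoIsPullback _ _ (isPullback_genι X)
  have h1 : e₁.hom ≫ genι X = g := hg.isoIsPullback_hom_fst _ _ _
  have h2 : e₁.hom ≫ ((Neron.genericFibre R).obj X).hom = f := hg.isoIsPullback_hom_snd _ _ _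
  have : IsIso ((Neron.genericFibre R).map b).left := inferInstance
  refine IsPullback.of_iso (isPullback_genι Y) (e₁ ≪≫ asIso ((Neron.genericFibre R).map b).left).symm
    (Iso.refl _) (Iso.refl _) (Iso.refl _) ?_ ?_ ?_ ?_
  · rw [Iso.refl_hom, Category.comp_id, Iso.symm_hom, Iso.eq_inv_comp]
    rw [Iso.trans_hom, asIso_hom, Category.assoc, genι_naturality, ← Category.assoc, h1]
  · rw [Iso.refl_hom, Category.comp_id, Iso.symm_hom, Iso.eq_inv_comp]
    rw [Iso.trans_hom, asIso_hom, Category.assoc, Over.w, h2]
  · simp
  · simp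

/-- An arithmetic surface over a discrete valuation ring is a regular proper model of its generic fibre. -/
theorem isRegularProperModel_of_isArithSurface {X : Over (Spec (CommRingCat.of R))}
    (hX : ArSurf.IsArithSurface R X) {C : Scheme.{u}} {f : C ⟶ Spec (CommRingCat.of (FractionRing R))}
    {g : C ⟶ X.left} (hg : IsPullback g f X.hom (Neron.genPt R)) :
    Models.IsRegularProperModel R X.left X.hom C f := by
  have hp : IsProper X.hom := isProper_of_isProjectiveOver hX.2.2.2.2
  exact ⟨⟨hX.2.2.2.1, inferInstance, inferInstance, g, hg⟩, hp, hX.1⟩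

/-- A relatively minimal arithmetic surface with generic fibre `C` is a minimal model of `C`. -/
theorem isMinimalModel_of_isRelMinimal {X : Over (Spec (CommRingCat.of R))}
    (hX : ArSurf.IsArithSurface R X) (hmin : Neron.IsRelMinimalRegularModel R X)
    {C : Scheme.{u}} {f : C ⟶ Spec (CommRingCat.of (FractionRing R))}
    {g : C ⟶ X.left} (hg : IsPullback g f X.hom (Neron.genPt R)) :
    Models.IsMinimalModel R X.left X.hom C f := by
  refine ⟨isRegularProperModel_of_isArithSurface hX hg, fun Γ => ?_⟩
  have : IsClosedImmersion Γ.ι := Γ.isClosedImmersion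
  exact not_isExcCurve_of_isRelMinimal hX hmin Γ.ι

end Groth.Agent.Models.H51.RelMin
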